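import Mathlib
import Cfsg.Agent.Wz.Defs

/-!
# A standard subgroup without outer automorphisms and with two classes of involutions: the configurations
-/

set_option autoImplicit false

namespace Cfsg.Agent.C3S

open Cfsg.Agent.Loc.Mss Cfsg.Agent.Gold Cfsg.Agent.Wr Cfsg.Agent.Wz Subgroup

universe u

/-- Facts on a Sylow 2-subgroup `T` with centre `⟨z⟩`, the second class `β` and `P = C_T(β)`. -/
structure Lc {A : Type} [Group A] (T P : Subgroup A) (z v β : A) : Prop where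
  simple : IsSimpleGroup A
  out : ∀ φ : MulAut A, ∃ a, φ = MulAut.conj a
  mult : HasCyclicSchurMultiplier A 1
  syl : Syl 2 T ⊤
  cardT : Nat.card T = 1024
  cardP : Nat.card P = 128
  zz : z * z = 1
  z1 : z ≠ 1
  zD : z ∈ ⁅P, P⁆
  zc : z ∈ 𝐂[T]
  cenT : ∀ x ∈ T, x ∈ 𝐂[T] → x = 1 ∨ x = z
  PT : P ≤ T
  bb : β * β = 1
  b1 : β ≠ 1
  bP : β ∈ P
  nzb : ¬ IsConj z β
  sylP : Syl 2 P (C1 β)
  cls : ∀ x, x * x = 1 → x ≠ 1 → IsConj z x ∨ IsConj β x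
  bz : IsConj β (β * z)
  cenP : ∀ x ∈ P, x ∈ 𝐂[P] → x = 1 ∨ x = z ∨ x = β ∨ x = β * z
  cenD : ∀ x ∈ ⁅P, P⁆, x ∈ 𝐂[P] → x = 1 ∨ x = z
  genT : T ≤ closure {x | x ∈ T ∧ x * x = 1}
  genP : P ≤ closure {x | x ∈ P ∧ x * x = 1}
  vT : v ∈ T
  vz : IsConj z v
  zv : IsConj z (z * v)
  v2 : ∀ s ∈ T, s * v * s⁻¹ = v ∨ s * v * s⁻¹ = z * v
  two : ∀ x ∈ T, x * x = 1 → (∀ s ∈ T, s * x * s⁻¹ = x ∨ s * x * s⁻¹ = z * x) → x = 1 ∨ x = z ∨ x = v ∨ x = z * v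
  nz : ∀ Y : Subgroup A, C1 z ≤ 𝐍[Y] → z ∈ Y → ∀ x ∈ T, (∀ h ∈ C1 z, x⁻¹ * (h * x * h⁻¹) ∈ Y) →
    x = 1 ∨ x = z ∨ v ∈ Y
  gen : C1 z ⊔ C1 v = ⊤
  odd : ∀ g ∈ 𝐂[⁅T, T⁆], Odd (orderOf g) → g = 1

/-- Two conjugates of `z` whose product has order dividing eight. -/
def Base {A : Type*} [Group A] (z a b : A) : Prop := IsConj z a ∧ IsConj z b ∧ (a * b) ^ 8 = 1

/-- Two conjugates `x`, `y` of `z` acting quadratically on `E` with values in `U`. -/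
structure Tri {A : Type*} [Group A] (z : A) (E U : Subgroup A) (x y : A) : Prop where
  le : U ≤ E
  zU : z ∈ U
  xz : IsConj z x
  yz : IsConj z y
  xU : ∀ a ∈ U, x * a = a * x
  yU : ∀ a ∈ U, y * a = a * y
  xE : ∀ a ∈ E, x * a * x * a ∈ U
  yE : ∀ a ∈ E, y * a * y * a ∈ U
  xy : x * y * x * y ∈ U

/-- The data that exclude the twisted relation. -/
structure Kd {A : Type*} [Group A] (z : A) (E U U' : Subgroup A) (x y e x₁ x₂ b e' : A) : Prop where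
  tri : Tri z E U x y
  tri' : Tri z E U' (x₁ * (b * x₂ * b)) (x₂ * (b * x₁ * b))
  z1 : IsConj z x₁
  z2 : IsConj z x₂
  bb : b * b = 1
  c1 : x₁ * (b * x₂ * b) = b * x₂ * b * x₁
  c2 : x₂ * (b * x₁ * b) = b * x₁ * b * x₂
  c3 : x₂ * (b * x₂ * b) * x₂ * (b * x₂ * b) ∈ U'
  c4 : ∀ a ∈ U', x₂ * a = a * x₂
  eE : e ∈ E
  eE' : e' ∈ E
  one : x * e * x * e * (y * e * y * e) * (x * y * x * y) = 1
  one' : ∀ p q, p = x₁ * (b * x₂ * b) → q = x₂ * (b * x₁ * b) →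
    p * e' * p * e' * (q * e' * q * e') * (p * q * p * q) = 1 ∧ e * y * x = e' * q * p ∧
      ∀ a ∈ E, x * a * x * a * (y * a * y * a) = p * a * p * a * (q * a * q * a)
  bU : ∀ a ∈ E, a * b * x * (a * b)⁻¹ * x ∈ U ∧ a * b * y * (a * b)⁻¹ * y ∈ U ∧ b * a * b * a ∈ U
  fin : ∀ α ∈ E, ∀ a ∈ E, ∀ μ, μ = x * y * x * y * (x * α * x * α) * (y * α * y * α) →
    μ * (a * b * (a * b)) ≠ 1 ∨
      μ * (a * b * x * (a * b)⁻¹ * x * (a * b * y * (a * b)⁻¹ * y) * (b * α * b * α)) ≠ 1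

/-- Facts on the conjugates of `z` and a self-centralising pure elementary abelian subgroup `E`. -/
structure Lk {A : Type} [Group A] (E : Subgroup A) (z v e f m : A) : Prop where
  perf : ⁅C1 z, C1 z⁆ = C1 z
  cenH : ∀ g ∈ 𝐂[C1 z], g = 1 ∨ g = z
  ext : ∀ φ : C1 z →* A, Function.Injective φ → (∀ h, φ h ∈ C1 z) → (∀ h : C1 z, (h : A) = z → φ h = z) →
    ∃ a ∈ C1 z, ∀ h : C1 z, φ h = a * h * a⁻¹
  comm : ∀ a ∈ E, ∀ b ∈ E, a * b = b * a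
  pure : ∀ a ∈ E, a = 1 ∨ IsConj z a
  cenE : 𝐂[E] ≤ E
  zE : z ∈ E
  vE : v ∈ E
  eE : e ∈ E
  ne : v ≠ 1 ∧ v ≠ z ∧ e ≠ 1 ∧ e ≠ z ∧ e ≠ v ∧ e ≠ z * v
  cenU : ∀ g ∈ 𝐂[C1 z ⊓ C1 v], g = 1 ∨ g = z ∨ g = v ∨ g = z * v
  pc : ∀ a b, IsConj z a → IsConj z b → a * b = b * a → a ≠ b → ∃ l, l * z * l⁻¹ = a ∧ l * v * l⁻¹ = b
  fz : IsConj z f
  ef : f * e * f * e = z
  fE : ∀ a ∈ E, f * a * f * a ∈ E ∧ f * (f * a * f * a) = f * a * f * a * f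
  cE : ∀ a ∈ E, a * f = f * a → a = 1 ∨ a = z ∨ a = v ∨ a = z * v
  fv : f * v = v * f
  me : m * e = e * m
  mf : m * f = f * m
  mv : m * v ≠ v * m
  p4 : ∀ a b, Base z a b → a * b = b * a ∨ ∃ l, l * f * l⁻¹ = a ∧ l * e * l⁻¹ = b
  gen : ∃ W : Set A, closure W = ⊤ ∧ ∀ a ∈ W, ∀ b ∈ W, Base z a b
  kd : ∃ U U' x y e₀ x₁ x₂ b e', Kd z E U U' x y e₀ x₁ x₂ b e'

/-- The lift is multiplicative on commuting conjugates of `z`. -/
def Ad {A : Type} [Group A] {z : A} {H : Type u} [Group H] (c : Co z H) (ζ : H) : Prop :=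
  ∀ a b, IsConj z a → IsConj z b → a * b = b * a → c.Z ζ (a * b) = c.Z ζ a * c.Z ζ b

/-- The twisted relation. -/
def Om {A : Type} [Group A] {z : A} {H : Type u} [Group H] (c : Co z H) (ζ : H) : Prop :=
  ∀ a b, Base z a b → c.Z ζ a * c.Z ζ b * c.Z ζ a = c.Z ζ b * c.Z ζ (a * b * a * b) * c.ι (a * b * a * b)

/-- The standard subgroup `L`, identified with `A` by `e`; an element `g` of the normaliser acts as `μ g`. -/
structure Bas (A : Type) [Group A] (G : Type u) [Group G] where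
  L : Subgroup G
  e : A →* G
  μ : G → A
  std : IsStandardSubgroup L
  inj : Function.Injective e
  range : e.range = L
  zA : ∀ a : A, (∀ x, a * x = x * a) → a = 1
  act : ∀ g ∈ 𝐍[L], ∀ a, g * e a * g⁻¹ = e (μ g * a * (μ g)⁻¹)

namespace Bas

variable {A : Type} [Group A] {G : Type u} [Group G] (b : Bas A G)

/-- Commuting involutions `t` of `C(L)` and `e u * k` of another conjugate of `C(L)`. -/
structure Pair (g t k : G) (u : A) : Prop where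
  nn : g ∉ 𝐍[b.L]
  tt : t * t = 1
  t1 : t ≠ 1
  tK : t ∈ 𝐂[b.L]
  kk : k * k = 1
  kK : k ∈ 𝐂[b.L]
  kt : k * t = t * k
  mem : b.e u * k ∈ cj(g, 𝐂[b.L])

/-- `⟨t⟩` is a Sylow 2-subgroup of `C(L)`. -/
structure Tv (t : G) : Prop where
  tt : t * t = 1
  t1 : t ≠ 1
  tK : t ∈ 𝐂[b.L]
  two : ∀ k ∈ 𝐂[b.L], k * t = t * k → Two k → k = 1 ∨ k = t

/-- Moreover `t` is conjugate to `t z`. -/
structure Tw (z : A) (t : G) : Prop extends b.Tv t where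
  fus : ∃ g, g * t * g⁻¹ = t * b.e z

end Bas

/-- The wreath configuration in a simple normal subgroup `X`. -/
structure En (A : Type) [Group A] (G : Type u) [Group G] where
  X : Subgroup G
  e : A →* G
  t : G
  nX : X.Normal
  sX : IsSimpleGroup X
  inj : Function.Injective e
  eX : ∀ a, e a ∈ X
  tt : t * t = 1
  comm : ∀ a b, e a * (t * e b * t) = t * e b * t * e a
  syl : ∀ Q : Subgroup G, IsPGroup 2 Q → (∀ q ∈ Q, q * t = t * q) → Nat.card Q ≤ 2048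

end Cfsg.Agent.C3S
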